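import Mathlib

/-! An alternating count excluding Steiner systems `S(k, k+1, 2m+1)` meeting an `m`-set in no
singletons. -/

set_option autoImplicit false

namespace Cfsg.Agent.Lib.Marggraff

open Finset

/-- The weight `(-1)^i i! (k-i)!`. -/
def wt (k i : ℕ) : ℤ := (-1) ^ i * ((i.factorial * (k - i).factorial : ℕ) : ℤ)

theorem wt_balance {k i : ℕ} (hi : 1 ≤ i) (hik : i ≤ k) :
    (i : ℤ) * wt k (i - 1) + ((k + 1 - i : ℕ) : ℤ) * wt k i = 0 := by
  obtain ⟨j, rfl⟩ : ∃ j, i = j + 1 := ⟨i - 1, by omega⟩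
  obtain ⟨d, rfl⟩ : ∃ d, k = j + 1 + d := ⟨k - (j + 1), by omega⟩
  simp only [wt, Nat.add_sub_cancel, show j + 1 + d - j = d + 1 by omega,
    show j + 1 + d - (j + 1) = d by omega, show j + 1 + d + 1 - (j + 1) = d + 1 by omega,
    Nat.factorial_succ, pow_succ]
  push_cast
  ring

theorem alt_sum_refl {n : ℕ} (hn : Even n) (a : ℕ → ℤ) :
    ∑ j ∈ range n, (-1) ^ j * (a j * a (n - 1 - j)) = 0 := by
  have h := sum_range_reflect (fun j => (-1 : ℤ) ^ j * (a j * a (n - 1 - j))) n
  have h2 : ∀ j ∈ range n, (-1 : ℤ) ^ (n - 1 - j) * (a (n - 1 - j) * a (n - 1 - (n - 1 - j))) =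
      -((-1) ^ j * (a j * a (n - 1 - j))) := by
    intro j hj
    rw [mem_range] at hj
    rw [show n - 1 - (n - 1 - j) = j by omega, mul_comm (a (n - 1 - j))]
    have hs : (-1 : ℤ) ^ (n - 1 - j) = -(-1) ^ j := by
      have : (-1 : ℤ) ^ (n - 1 - j) * (-1) ^ j = -1 := by
        rw [← pow_add, show n - 1 - j + j = n - 1 by omega]
        exact Odd.neg_one_pow (Nat.Even.sub_odd (by omega) hn odd_one)
      rcases neg_one_pow_eq_or ℤ j with e | e <;> rw [e] at this ⊢ <;> linarith
    rw [hs]; ring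
  rw [sum_congr rfl h2, sum_neg_distrib] at h
  linarith

theorem alt_sum_neg {k m : ℕ} (hk : Even k) (hk0 : 0 < k) (hkm : k ≤ m + 1) :
    ∑ j ∈ Icc 1 k, (-1 : ℤ) ^ j * ((m.descFactorial j * (m + 1).descFactorial (k - j) : ℕ) : ℤ) < 0 := by
  obtain ⟨l, rfl⟩ : ∃ l, k = l + 1 := ⟨k - 1, by omega⟩
  set a : ℕ → ℤ := fun j => (m.descFactorial j : ℤ)
  set t : ℕ → ℤ := fun j => (-1) ^ j * ((m.descFactorial j * (m + 1).descFactorial (l + 1 - j) : ℕ) : ℤ)
  have h1 : ∑ j ∈ range (l + 1), t j = 0 := by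
    have : ∀ j ∈ range (l + 1), t j = ((m : ℤ) + 1) * ((-1) ^ j * (a j * a (l + 1 - 1 - j))) := by
      intro j hj
      rw [mem_range] at hj
      simp only [t, a]
      rw [show l + 1 - j = (l - j) + 1 by omega, Nat.succ_descFactorial_succ]
      rw [show l + 1 - 1 - j = l - j by omega]
      push_cast; ring
    rw [sum_congr rfl this, ← mul_sum, alt_sum_refl hk a, mul_zero]
  have h2 : ∑ j ∈ range (l + 2), t j = t (l + 1) := by rw [sum_range_succ, h1, zero_add]
  have h3 : ∑ j ∈ range (l + 2), t j = t 0 + ∑ j ∈ Icc 1 (l + 1), t j := by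
    rw [range_eq_Ico, sum_eq_sum_Ico_succ_bot (by omega)]
    congr 1
  have hneg : t (l + 1) - t 0 < 0 := by
    simp only [t, Nat.sub_self, Nat.descFactorial_zero, mul_one, pow_zero, one_mul, Nat.sub_zero,
      Even.neg_one_pow hk]
    rw [Nat.succ_descFactorial_succ, Nat.descFactorial_succ]
    have hpos : 0 < m.descFactorial l := Nat.pos_of_ne_zero fun e => by
      rw [Nat.descFactorial_eq_zero_iff_lt] at e; omega
    have : (m - l) * m.descFactorial l < (m + 1) * m.descFactorial l :=
      Nat.mul_lt_mul_of_pos_right (by omega) hpos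
    rw [sub_neg]
    exact_mod_cast this
  have h4 : ∑ j ∈ Icc 1 (l + 1), t j = t (l + 1) - t 0 := by linarith
  exact h4.trans_lt hneg

open Classical in
/-- No completion map from `k`-sets to `(k+1)`-blocks can exist. -/
theorem no_completion {Ω : Type*} [Fintype Ω] (Γ : Finset Ω) {k m : ℕ} (hk : Even k) (hk0 : 0 < k)
    (hkm : k ≤ m + 1) (hΓ : Γ.card = m) (hn : Fintype.card Ω = 2 * m + 1)
    (blk : Finset Ω → Finset Ω)
    (hsub : ∀ S, S.card = k → S ⊆ blk S ∧ (blk S).card = k + 1)
    (huniq : ∀ S T, S.card = k → T.card = k → T ⊆ blk S → blk T = blk S)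
    (hC : ∀ S, S.card = k → Disjoint S Γ → Disjoint (blk S) Γ) : False := by
  set P := (univ : Finset Ω).powersetCard k with hP
  have hmemP : ∀ S, S ∈ P ↔ S.card = k := fun S => by simp [hP]
  set F : Finset Ω → ℤ := fun S => wt k (S ∩ Γ).card with hF
  -- the sum over one block
  have hinner : ∀ B : Finset Ω, B.card = k + 1 →
      (∑ u ∈ B, F (B.erase u)) = if (B ∩ Γ).card = 0 then ((k + 1 : ℕ) : ℤ) * wt k 0
        else if (B ∩ Γ).card = k + 1 then ((k + 1 : ℕ) : ℤ) * wt k k else 0 := by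
    intro B hB
    set i := (B ∩ Γ).card with hi
    have hio : (B.filter fun u => u ∉ Γ).card = k + 1 - i := by
      have := card_filter_add_card_filter_not (s := B) (fun u => u ∈ Γ)
      rw [filter_mem_eq_inter, hB, ← hi] at this
      omega
    rw [← sum_filter_add_sum_filter_not B (fun u => u ∈ Γ)]
    have e1 : ∀ u ∈ B.filter (fun u => u ∈ Γ), F (B.erase u) = wt k (i - 1) := by
      intro u hu
      obtain ⟨huB, huΓ⟩ := mem_filter.1 hu
      simp only [hF, erase_inter, card_erase_of_mem (mem_inter.2 ⟨huB, huΓ⟩), hi]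
    have e2 : ∀ u ∈ B.filter (fun u => u ∉ Γ), F (B.erase u) = wt k i := by
      intro u hu
      obtain ⟨-, huΓ⟩ := mem_filter.1 hu
      simp only [hF, erase_inter, erase_eq_of_notMem (fun h => huΓ (mem_inter.1 h).2), hi]
    rw [sum_congr rfl e1, sum_congr rfl e2, sum_const, sum_const, filter_mem_eq_inter, hio, ← hi,
      nsmul_eq_mul, nsmul_eq_mul]
    have hile : i ≤ k + 1 := hB ▸ card_le_card inter_subset_left
    split_ifs with h0 h1
    · simp [h0]
    · simp [h1]
    · exact wt_balance (by omega) (by omega)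
  have hnn : ∀ B : Finset Ω, B.card = k + 1 → 0 ≤ ∑ u ∈ B, F (B.erase u) := by
    intro B hB
    rw [hinner B hB]
    have h0 : (0 : ℤ) ≤ wt k 0 := by simp [wt]
    have h1 : (0 : ℤ) ≤ wt k k := by simp [wt, Even.neg_one_pow hk]
    split_ifs <;> positivity
  have hfib : ∀ B ∈ P.image blk, (P.filter fun S => blk S = B) = B.image (B.erase ·) ∧ B.card = k + 1 := by
    intro B hB
    obtain ⟨S, hS, rfl⟩ := mem_image.1 hB
    rw [hmemP] at hS
    refine ⟨?_, (hsub S hS).2⟩
    ext T
    simp only [mem_filter, hmemP, mem_image]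
    constructor
    · rintro ⟨hT, hTe⟩
      have hTs : T ⊆ blk S := hTe ▸ (hsub T hT).1
      obtain ⟨u, hu⟩ := card_eq_one.1 (show (blk S \ T).card = 1 by
        rw [card_sdiff_of_subset hTs, (hsub S hS).2, hT]; omega)
      have huB : u ∈ blk S ∧ u ∉ T := mem_sdiff.1 (hu ▸ mem_singleton_self u)
      refine ⟨u, huB.1, (eq_of_subset_of_card_le (fun t ht => mem_erase.2 ⟨fun e => huB.2 (by rw [← e]; exact ht), hTs ht⟩) ?_).symm⟩
      rw [card_erase_of_mem huB.1, (hsub S hS).2, hT]; omega
    · rintro ⟨u, hu, rfl⟩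
      have hc : ((blk S).erase u).card = k := by rw [card_erase_of_mem hu, (hsub S hS).2]; omega
      exact ⟨hc, huniq S _ hS hc (erase_subset _ _)⟩
  have hfibsum : ∀ B ∈ P.image blk, (∑ S ∈ P.filter (fun S => blk S = B), F S) = ∑ u ∈ B, F (B.erase u) := by
    intro B hB
    rw [(hfib B hB).1, sum_image]
    exact erase_injOn B
  -- the out sets against the rest
  set P0 := P.filter (fun S => (S ∩ Γ).card = 0)
  have hge : 0 ≤ ∑ S ∈ P.filter (fun S => ¬ (S ∩ Γ).card = 0), F S := by
    rw [← sum_fiberwise_of_maps_to (t := P.image blk) (g := blk)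
      (fun S hS => mem_image_of_mem blk (mem_filter.1 hS).1)]
    refine sum_nonneg fun B hB => ?_
    obtain ⟨hBf, hBc⟩ := hfib B hB
    by_cases hB0 : (B ∩ Γ).card = 0
    · rw [filter_filter, sum_eq_zero]
      intro S hS
      obtain ⟨hSP, hS0, hSB⟩ := mem_filter.1 hS
      exact absurd (Nat.le_zero.1 (hB0 ▸ card_le_card (inter_subset_inter_right (hSB ▸ (hsub S ((hmemP S).1 hSP)).1)))) hS0
    · have heq : (P.filter fun S => ¬ (S ∩ Γ).card = 0).filter (fun S => blk S = B) = P.filter (fun S => blk S = B) := by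
        rw [filter_filter]
        refine filter_congr fun S hS => ⟨And.right, fun hSB => ⟨fun h0 => hB0 ?_, hSB⟩⟩
        have hd : Disjoint S Γ := disjoint_iff_inter_eq_empty.2 (card_eq_zero.1 h0)
        rw [← hSB, disjoint_iff_inter_eq_empty.1 (hC S ((hmemP S).1 hS) hd), card_empty]
      rw [heq, hfibsum B hB]
      exact hnn B hBc
  -- evaluate by the size of the intersection
  have hval : ∑ S ∈ P.filter (fun S => ¬ (S ∩ Γ).card = 0), F S =
      ∑ j ∈ Icc 1 k, (-1 : ℤ) ^ j * ((m.descFactorial j * (m + 1).descFactorial (k - j) : ℕ) : ℤ) := by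
    rw [← sum_fiberwise_of_maps_to (t := Icc 1 k) (g := fun S => (S ∩ Γ).card)
      (fun S hS => by
        obtain ⟨hSP, hS0⟩ := mem_filter.1 hS
        exact mem_Icc.2 ⟨Nat.pos_of_ne_zero hS0, (hmemP S).1 hSP ▸ card_le_card inter_subset_left⟩)]
    refine sum_congr rfl fun j hj => ?_
    obtain ⟨hj1, hjk⟩ := mem_Icc.1 hj
    rw [sum_congr rfl (g := fun _ => wt k j) (fun S hS => by simp only [hF, (mem_filter.1 hS).2]),
      sum_const, nsmul_eq_mul]
    have hcount : ((P.filter fun S => ¬ (S ∩ Γ).card = 0).filter fun S => (S ∩ Γ).card = j).card =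
        m.choose j * (m + 1).choose (k - j) := by
      rw [← hΓ, ← show (Γᶜ).card = Γ.card + 1 by rw [card_compl, hn, hΓ]; omega,
        ← card_powersetCard j Γ, ← card_powersetCard (k - j) Γᶜ, ← card_product]
      refine card_bij (fun S _ => (S ∩ Γ, S ∩ Γᶜ)) ?_ ?_ ?_
      · intro S hS
        simp only [mem_filter, hmemP] at hS
        simp only [mem_product, mem_powersetCard]
        refine ⟨⟨inter_subset_right, hS.2⟩, inter_subset_right, ?_⟩
        have := card_sdiff_add_card_inter S Γ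
        rw [sdiff_eq_inter_compl, hS.1.1, hS.2] at this
        omega
      · intro S _ T _ h
        simp only [Prod.mk.injEq] at h
        rw [← inter_univ S, ← inter_univ T, ← union_compl Γ, inter_union_distrib_left,
          inter_union_distrib_left, h.1, h.2]
      · rintro ⟨A, B⟩ hAB
        simp only [mem_product, mem_powersetCard] at hAB
        obtain ⟨⟨hA, hAc⟩, hB, hBc⟩ := hAB
        have hd : Disjoint A B := disjoint_of_subset_left hA (disjoint_of_subset_right hB disjoint_compl_right)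
        have e1 : (A ∪ B) ∩ Γ = A := by
          rw [union_inter_distrib_right, inter_eq_left.2 hA,
            disjoint_iff_inter_eq_empty.1 (disjoint_of_subset_left hB disjoint_compl_left), union_empty]
        have e2 : (A ∪ B) ∩ Γᶜ = B := by
          rw [union_inter_distrib_right, inter_eq_left.2 hB,
            disjoint_iff_inter_eq_empty.1 (disjoint_of_subset_left hA disjoint_compl_right), empty_union]
        refine ⟨A ∪ B, ?_, by rw [e1, e2]⟩
        simp only [mem_filter, hmemP, e1, hAc, and_true]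
        exact ⟨by rw [card_union_of_disjoint hd, hAc, hBc]; omega, by omega⟩
    rw [hcount, wt, Nat.descFactorial_eq_factorial_mul_choose, Nat.descFactorial_eq_factorial_mul_choose]
    push_cast
    ring
  exact absurd (hval ▸ hge) (not_le.2 (alt_sum_neg hk hk0 hkm))

open Classical in
/-- Parity: `n - (k-1)` is even when every `k`-set has a unique completion. -/
theorem even_rest {Ω : Type*} [Fintype Ω] {k : ℕ} (hk0 : 0 < k) (hkn : k ≤ Fintype.card Ω)
    (blk : Finset Ω → Finset Ω)
    (hsub : ∀ S, S.card = k → S ⊆ blk S ∧ (blk S).card = k + 1)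
    (huniq : ∀ S T, S.card = k → T.card = k → T ⊆ blk S → blk T = blk S) :
    Even (Fintype.card Ω - (k - 1)) := by
  obtain ⟨S0, -, hS0⟩ := exists_subset_card_eq (s := (univ : Finset Ω)) (n := k - 1) (by rw [card_univ]; omega)
  set R := S0ᶜ with hR
  have hins : ∀ z ∈ R, (insert z S0).card = k := fun z hz => by
    rw [card_insert_of_notMem (mem_compl.1 hz), hS0]; omega
  have hone : ∀ z ∈ R, ∃ w, blk (insert z S0) \ insert z S0 = {w} := fun z hz => by
    obtain ⟨h1, h2⟩ := hsub _ (hins z hz)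
    exact card_eq_one.1 (by rw [card_sdiff_of_subset h1, h2, hins z hz]; omega)
  choose w hw using hone
  have hwmem : ∀ z (hz : z ∈ R), w z hz ∈ blk (insert z S0) ∧ w z hz ∉ insert z S0 := fun z hz =>
    mem_sdiff.1 ((hw z hz).symm ▸ mem_singleton_self _)
  have hwR : ∀ z (hz : z ∈ R), w z hz ∈ R := fun z hz =>
    mem_compl.2 fun h => (hwmem z hz).2 (mem_insert_of_mem h)
  have hinv : ∀ z (hz : z ∈ R), w (w z hz) (hwR z hz) = z := by
    intro z hz
    set v := w z hz with hv
    have hb : blk (insert v S0) = blk (insert z S0) :=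
      huniq _ _ (hins z hz) (hins v (hwR z hz)) (insert_subset (hwmem z hz).1
        ((subset_insert _ _).trans (hsub _ (hins z hz)).1))
    have hz1 : z ∈ blk (insert v S0) \ insert v S0 := by
      refine mem_sdiff.2 ⟨hb ▸ (hsub _ (hins z hz)).1 (mem_insert_self _ _), fun h => ?_⟩
      rcases mem_insert.1 h with h | h
      · exact (hwmem z hz).2 (mem_insert.2 (Or.inl h.symm))
      · exact mem_compl.1 hz h
    rw [hw v (hwR z hz)] at hz1
    exact (mem_singleton.1 hz1).symm
  have hsum : ∑ _z ∈ R, (1 : ZMod 2) = 0 := by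
    refine sum_involution (fun z hz => w z hz) (fun z hz => by decide) (fun z hz _ h => ?_) hwR hinv
    exact (hwmem z hz).2 (mem_insert.2 (Or.inl h))
  rw [sum_const, nsmul_one, ZMod.natCast_eq_zero_iff_even, hR, card_compl, hS0] at hsum
  exact hsum

end Cfsg.Agent.Lib.Marggraff
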