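import Mathlib

/-! Small moved sets in multiply transitive groups. -/

set_option autoImplicit false

namespace Cfsg.Agent.Lib.Marggraff

open MulAction

variable (G : Type*) [Group G] (Ω : Type*) [MulAction G Ω]

/-- Some element moves at least one and at most three points. -/
def HasSmall : Prop := ∃ g : G, (∃ x : Ω, g • x ≠ x) ∧ {x : Ω | g • x ≠ x}.ncard ≤ 3

variable {G Ω} [Finite Ω]

theorem exists_map {k : ℕ} (hk : IsMultiplyPretransitive G Ω k) (hn : k ≤ Nat.card Ω)
    (A : Finset Ω) (hA : A.card ≤ k) (f : Ω → Ω) (hf : Set.InjOn f A) :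
    ∃ g : G, ∀ u ∈ A, g • u = f u := by
  haveI := hk
  haveI : IsMultiplyPretransitive G Ω A.card := isMultiplyPretransitive_of_le hA hn
  let e : Fin A.card → Ω := fun i => (A.equivFin.symm i : Ω)
  have he : Function.Injective e := Subtype.val_injective.comp A.equivFin.symm.injective
  let y : Fin A.card → Ω := fun i => f (e i)
  have hy : Function.Injective y := fun i j h =>
    he (hf (A.equivFin.symm i).2 (A.equivFin.symm j).2 h)
  obtain ⟨g, hg⟩ := exists_smul_eq G (⟨e, he⟩ : Fin A.card ↪ Ω) ⟨y, hy⟩
  refine ⟨g, fun u hu => ?_⟩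
  have h := DFunLike.congr_fun hg (A.equivFin ⟨u, hu⟩)
  simpa [e, y] using h

open Classical in
theorem exists_walk (x : Ω → Ω) (S : Finset Ω) (hS : ∀ u ∈ S, x u ∈ S ∧ x u ≠ u) :
    ∀ t, 2 ≤ t → t ≤ S.card →
      ∃ A ⊆ S, A.card = t ∧ (A.filter fun u => x u ∉ A).card ≤ 1 := by
  intro t ht hts
  induction t, ht using Nat.le_induction with
  | base =>
    obtain ⟨u, hu⟩ := Finset.card_pos.1 (by omega : 0 < S.card)
    refine ⟨{u, x u}, ?_, Finset.card_pair (hS u hu).2.symm, ?_⟩
    · intro v hv
      simp only [Finset.mem_insert, Finset.mem_singleton] at hv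
      rcases hv with rfl | rfl
      exacts [hu, (hS u hu).1]
    · refine le_trans (Finset.card_le_card (t := {x u}) fun v hv => ?_) (by simp)
      simp only [Finset.mem_filter, Finset.mem_insert, Finset.mem_singleton] at hv ⊢
      rcases hv with ⟨rfl | rfl, hv⟩
      · exact absurd (Or.inr rfl) hv
      · rfl
  | succ t ht ih =>
    obtain ⟨A, hAS, hAc, hAd⟩ := ih (by omega)
    by_cases hd : (A.filter fun u => x u ∉ A).Nonempty
    · obtain ⟨u, hu⟩ := hd
      obtain ⟨huA, hxu⟩ := Finset.mem_filter.1 hu
      refine ⟨insert (x u) A, Finset.insert_subset (hS u (hAS huA)).1 hAS,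
        by rw [Finset.card_insert_of_notMem hxu, hAc], ?_⟩
      refine le_trans (Finset.card_le_card (t := {x u}) fun v hv => ?_) (by simp)
      simp only [Finset.mem_filter, Finset.mem_insert, Finset.mem_singleton, not_or] at hv ⊢
      rcases hv with ⟨rfl | hvA, hv1, hv2⟩
      · rfl
      · exfalso
        have : v = u := Finset.card_le_one.1 hAd v (Finset.mem_filter.2 ⟨hvA, hv2⟩) u hu
        exact hv1 (by rw [this])
    · obtain ⟨w, hwS, hwA⟩ := Finset.exists_mem_notMem_of_card_lt_card (s := A) (t := S) (by omega)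
      refine ⟨insert w A, Finset.insert_subset hwS hAS,
        by rw [Finset.card_insert_of_notMem hwA, hAc], ?_⟩
      refine le_trans (Finset.card_le_card (t := {w}) fun v hv => ?_) (by simp)
      simp only [Finset.mem_filter, Finset.mem_insert, Finset.mem_singleton, not_or] at hv ⊢
      rcases hv with ⟨rfl | hvA, -, hv2⟩
      · rfl
      · exact absurd ⟨v, Finset.mem_filter.2 ⟨hvA, hv2⟩⟩ hd

/-- Descent on the size of a moved set. -/
theorem hasSmall_of_transitive {k : ℕ} (hk : IsMultiplyPretransitive G Ω k) (hn : k ≤ Nat.card Ω) :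
    ∀ s : ℕ, s + 5 ≤ 2 * k → s < Nat.card Ω →
      ∀ x : G, (∃ u : Ω, x • u ≠ u) → {u : Ω | x • u ≠ u}.ncard = s → HasSmall G Ω := by
  classical
  haveI := Fintype.ofFinite Ω
  intro s
  induction s using Nat.strong_induction_on with
  | _ s ih =>
    intro hsk hsn x hx hs
    by_cases hs3 : s ≤ 3
    · exact ⟨x, hx, hs ▸ hs3⟩
    set S : Finset Ω := Finset.univ.filter fun u => x • u ≠ u with hSdef
    have hmemS : ∀ u, u ∈ S ↔ x • u ≠ u := fun u => by simp [hSdef]
    have hScard : S.card = s := by
      rw [← hs, ← Set.ncard_coe_finset]; congr 1; ext u; simp [hSdef]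
    have hS : ∀ u ∈ S, x • u ∈ S ∧ x • u ≠ u := fun u hu =>
      ⟨(hmemS _).2 fun e => (hmemS u).1 hu (MulAction.injective x e), (hmemS u).1 hu⟩
    obtain ⟨A, hAS, hAt, hAd⟩ := exists_walk (x • ·) S hS (min k s) (by omega) (by omega)
    -- choose `a` with a predecessor inside `A`
    obtain ⟨v, hv, hxv⟩ : ∃ v ∈ A, x • v ∈ A := by
      by_contra hno
      push Not at hno
      rw [Finset.filter_true_of_mem hno] at hAd
      omega
    set a := x • v with ha
    have hva : v ≠ a := fun e => (hS v (hAS hv)).2 e.symm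
    obtain ⟨o, ho⟩ : ∃ o, o ∉ S := by
      by_contra hno
      push Not at hno
      rw [Finset.eq_univ_iff_forall.2 hno, Finset.card_univ, ← Nat.card_eq_fintype_card] at hScard
      omega
    obtain ⟨g, hg⟩ := exists_map hk hn A (by omega) (Function.update id a o) (by
      intro u hu w hw h
      simp only [Function.update_apply, id] at h
      split_ifs at h with h1 h2 h2
      · exact h1.trans h2.symm
      · exact absurd (h ▸ hAS hw) ho
      · exact absurd (h ▸ hAS hu : o ∈ S) ho
      · exact h)
    have hga : g • a = o := by rw [hg a hxv]; simp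
    have hgfix : ∀ u ∈ A, u ≠ a → g • u = u := fun u hu hne => by
      rw [hg u hu]; simp [Function.update_apply, hne]
    set y := g * x * g⁻¹ with hy
    have hyu : ∀ u : Ω, y • (g • u) = g • x • u := fun u => by rw [hy, mul_smul, mul_smul, inv_smul_smul]
    -- where `y` agrees with `x`
    set E := A.filter (fun u => u ≠ a ∧ x • u ∈ A ∧ x • u ≠ a) with hE
    have hagree : ∀ u ∈ E, y • u = x • u := fun u hu => by
      simp only [hE, Finset.mem_filter] at hu
      conv_lhs => rw [← hgfix u hu.1 hu.2.1]
      rw [hyu, hgfix _ hu.2.2.1 hu.2.2.2]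
    have hyv : y • v ≠ x • v := by
      have h1 := hyu v
      rw [hgfix v hv hva] at h1
      rw [h1, ← ha, hga]
      exact fun e => ho (e.symm ▸ hAS hxv)
    set z := x⁻¹ * y with hz
    have hzx : ∀ u : Ω, z • u = u ↔ y • u = x • u := fun u => by
      rw [hz, mul_smul, inv_smul_eq_iff]
    set Sy := S.image (fun u => g • u) with hSy
    have hzsub : (Finset.univ.filter fun u => z • u ≠ u) ⊆ (S ∪ Sy) \ E := by
      intro u hu
      simp only [Finset.mem_filter, Finset.mem_univ, true_and] at hu
      refine Finset.mem_sdiff.2 ⟨?_, fun hE' => hu ((hzx u).2 (hagree u hE'))⟩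
      by_contra hnot
      simp only [Finset.mem_union, hSy, Finset.mem_image, not_or, not_exists, not_and] at hnot
      apply hu
      rw [hzx, show x • u = u from not_not.1 fun h => hnot.1 ((hmemS u).2 h)]
      have h2 : x • (g⁻¹ • u) = g⁻¹ • u :=
        not_not.1 fun h => hnot.2 _ ((hmemS _).2 h) (smul_inv_smul g u)
      have h3 := hyu (g⁻¹ • u)
      rwa [h2, smul_inv_smul] at h3
    have hEsub : E ⊆ S ∪ Sy := fun u hu =>
      Finset.mem_union_left _ (hAS (Finset.mem_filter.1 hu).1)
    have hinter : A.erase a ⊆ S ∩ Sy := fun u hu => by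
      obtain ⟨hne, huA⟩ := Finset.mem_erase.1 hu
      exact Finset.mem_inter.2 ⟨hAS huA, Finset.mem_image.2 ⟨u, hAS huA, hgfix u huA hne⟩⟩
    have c1 := Finset.card_le_card hinter
    rw [Finset.card_erase_of_mem hxv] at c1
    have c2 := Finset.card_union_add_card_inter S Sy
    have c3 : Sy.card = s := by rw [hSy, Finset.card_image_of_injective _ (MulAction.injective g), hScard]
    have c4 := Finset.card_le_card hzsub
    rw [Finset.card_sdiff_of_subset hEsub] at c4
    set d := (A.filter fun u => x • u ∉ A).card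
    have c5 : A.card ≤ E.card + 2 + d := by
      have hsub : A ⊆ (E ∪ {a, v}) ∪ A.filter fun u => x • u ∉ A := by
        intro u hu
        simp only [Finset.mem_union, Finset.mem_insert, Finset.mem_singleton, Finset.mem_filter, hE]
        by_cases h1 : u = a
        · exact Or.inl (Or.inr (Or.inl h1))
        by_cases h2 : x • u ∈ A
        · by_cases h3 : x • u = a
          · exact Or.inl (Or.inr (Or.inr (MulAction.injective x (h3.trans ha))))
          · exact Or.inl (Or.inl ⟨hu, h1, h2, h3⟩)
        · exact Or.inr ⟨hu, h2⟩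
      have := (Finset.card_le_card hsub).trans ((Finset.card_union_le _ _).trans
        (Nat.add_le_add_right (Finset.card_union_le _ _) _))
      rw [Finset.card_pair hva.symm] at this
      exact this
    have hd1 : d ≤ 1 := hAd
    have hzcard : {u : Ω | z • u ≠ u}.ncard = (Finset.univ.filter fun u : Ω => z • u ≠ u).card := by
      rw [← Set.ncard_coe_finset]; congr 1; ext u; simp
    have hzne : ∃ u : Ω, z • u ≠ u := ⟨v, fun e => hyv ((hzx v).1 e)⟩
    rcases le_or_gt s k with hle | hgt
    · -- here `A = S`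
      have hd0 : d = 0 := by
        rw [Finset.card_eq_zero, Finset.filter_eq_empty_iff]
        intro u hu
        have hAeq : A = S := Finset.eq_of_subset_of_card_le hAS (by omega)
        rw [not_not, hAeq]
        exact (hS u (hAS hu)).1
      exact ⟨z, hzne, by omega⟩
    · exact ih _ (by omega : {u : Ω | z • u ≠ u}.ncard < s) (by omega) (by omega) z hzne rfl

end Cfsg.Agent.Lib.Marggraff
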