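import Mathlib
import Cfsg.Agent.Lib.Recog.JordanSet
import Cfsg.Agent.Lib.Marggraff.Small
import Cfsg.Agent.Lib.Marggraff.Count

/-! Marggraff's theorem. -/

set_option autoImplicit false

namespace Cfsg.Agent.Lib.Marggraff

open MulAction Cfsg.Agent.Lib.Recog
open scoped Pointwise

universe u v

variable {G : Type u} [Group G] {Ω : Type v} [MulAction G Ω] [Finite Ω]

theorem succ_transitive_of_blocks {k : ℕ} (hk : IsMultiplyPretransitive G Ω k) {L : Set Ω}
    (hL : L.ncard = k) (hM : IsJordanSet G Lᶜ) : IsMultiplyPretransitive G Ω (k + 1) := by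
  classical
  haveI := hk
  haveI := Fintype.ofFinite Ω
  let e : Fin k ≃ L.toFinset := (L.toFinset.equivFinOfCardEq (by rw [← Set.ncard_eq_toFinset_card']; exact hL)).symm
  let eL : Fin k ↪ Ω := ⟨fun i => (e i : Ω), Subtype.val_injective.comp e.injective⟩
  rw [isMultiplyPretransitive_iff]
  intro x y
  obtain ⟨g, hg⟩ := exists_smul_eq G (Fin.castSuccEmb.trans x) eL
  obtain ⟨h, hh⟩ := exists_smul_eq G (Fin.castSuccEmb.trans y) eL
  have hgi : ∀ i : Fin k, g • x i.castSucc = e i := fun i => DFunLike.congr_fun hg i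
  have hhi : ∀ i : Fin k, h • y i.castSucc = e i := fun i => DFunLike.congr_fun hh i
  have hlast : ∀ (q : G) (w : Fin (k + 1) ↪ Ω), (∀ i : Fin k, q • w i.castSucc = e i) →
      q • w (Fin.last k) ∈ Lᶜ := by
    intro q w hw hmem
    have hb : q • w (Fin.last k) ∈ L.toFinset := Set.mem_toFinset.2 hmem
    obtain ⟨i, hi⟩ := e.surjective ⟨_, hb⟩
    have h1 : q • w i.castSucc = q • w (Fin.last k) := by rw [hw i, hi]
    exact (Fin.castSucc_lt_last i).ne (w.injective (MulAction.injective q h1))
  obtain ⟨c, hc, hcx⟩ := hM _ (hlast g x hgi) _ (hlast h y hhi)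
  refine ⟨h⁻¹ * c * g, ?_⟩
  ext i
  simp only [Function.Embedding.smul_apply, mul_smul, inv_smul_eq_iff]
  refine Fin.lastCases ?_ (fun j => ?_) i
  · exact hcx
  · rw [hgi, hhi, hc _ (fun hn => hn (Set.mem_toFinset.1 (e j).2))]

/-- The transitivity degree can be raised. -/
theorem succ_transitive {k m : ℕ} (hk : IsMultiplyPretransitive G Ω k) {Γ : Set Ω}
    (hΓ : IsJordanSet G Γ) (hm : Γ.ncard = m) (hn : Nat.card Ω = 2 * m + 1) (hk4 : 4 ≤ k)
    (hkm : 2 * k ≤ m + 4) : IsMultiplyPretransitive G Ω (k + 1) := by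
  classical
  haveI := Fintype.ofFinite Ω
  haveI := hk
  have hkn : k ≤ Nat.card Ω := by omega
  haveI : IsMultiplyPretransitive G Ω 2 := isMultiplyPretransitive_of_le (by omega : 2 ≤ k) hkn
  haveI : IsPreprimitive G Ω := isPreprimitive_of_is_two_pretransitive inferInstance
  obtain ⟨M, hΓM, hM⟩ := Finite.exists_le_maximal
    (p := fun X : Set Ω => IsJordanSet G X ∧ X.ncard + k ≤ Nat.card Ω) (a := Γ) ⟨hΓ, by omega⟩
  obtain ⟨hMJ, hMle⟩ := hM.prop
  have hMm : m ≤ M.ncard := hm ▸ Set.ncard_le_ncard hΓM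
  have hcard : ∀ g : G, (g • M).ncard = M.ncard := fun g =>
    Set.ncard_image_of_injective M (MulAction.injective g)
  have hbig : ∀ g : G, (g • M ∩ M).Nonempty → g • M ≠ M → Nat.card Ω < (g • M ∪ M).ncard + k := by
    intro g hne hneq
    by_contra hu
    have := hM.le_of_ge ⟨(hMJ.smul g).union hMJ hne, by omega⟩ Set.subset_union_right
    exact hneq (Set.eq_of_subset_of_ncard_le (Set.union_subset_iff.1 this).1 (le_of_eq (hcard g).symm))
  have hhalf : Nat.card Ω + 2 ≤ 2 * M.ncard + k := by
    obtain ⟨c, hc, d, hd, hcd⟩ := two_points_of_ncard (s := M) (by omega)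
    obtain ⟨g, hgc, hgd⟩ := IsPreprimitive.exists_mem_smul_and_notMem_smul (G := G) M.toFinite ⟨c, hc⟩
      (fun e => by rw [e, Set.ncard_univ] at hMle; omega) hcd
    have h3 := hbig g ⟨c, hgc, hc⟩ fun e => hgd (e.symm ▸ hd)
    have h5 := Set.ncard_union_add_ncard_inter (g • M) M
    have h6 : 0 < (g • M ∩ M).ncard := (Set.ncard_pos (Set.toFinite _)).2 ⟨c, hgc, hc⟩
    rw [hcard] at h5
    omega
  have hsum := Set.ncard_add_ncard_compl M
  by_cases hLk : Mᶜ.ncard = k
  · exact succ_transitive_of_blocks hk hLk (by rwa [compl_compl])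
  exfalso
  have hk1 : k + 1 ≤ Mᶜ.ncard := by omega
  set L : Finset Ω := Mᶜ.toFinset with hL
  have hLc : L.card = Mᶜ.ncard := (Set.ncard_eq_toFinset_card' _).symm
  set Bl : G → Finset Ω := fun g => L.image (g • ·) with hBl
  have hBlc : ∀ g, (Bl g).card = L.card := fun g =>
    Finset.card_image_of_injective _ (MulAction.injective g)
  have hBlmem : ∀ g z, z ∈ Bl g ↔ z ∉ g • M := by
    intro g z
    simp only [hBl, Finset.mem_image, hL, Set.mem_toFinset, Set.mem_compl_iff]
    rw [Set.mem_smul_set_iff_inv_smul_mem]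
    constructor
    · rintro ⟨w, hw, rfl⟩; rwa [inv_smul_smul]
    · exact fun h => ⟨g⁻¹ • z, h, smul_inv_smul g z⟩
  have huniq : ∀ g h : G, ∀ S : Finset Ω, k ≤ S.card → S ⊆ Bl g → S ⊆ Bl h → Bl h = Bl g := by
    intro g h S hS hg hh
    set q := g⁻¹ * h with hq
    by_contra hne
    have hne' : q • M ≠ M := by
      intro e
      apply hne
      have e2 : h • M = g • M := by
        rw [hq, mul_smul, inv_smul_eq_iff] at e; exact e
      ext z; rw [hBlmem, hBlmem, e2]
    have hu : (q • M ∪ M).ncard + k ≤ Nat.card Ω := by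
      have hsub : (↑(S.image (g⁻¹ • ·)) : Set Ω) ⊆ (q • M ∪ M)ᶜ := by
        intro z hz
        obtain ⟨w, hw, rfl⟩ := Finset.mem_image.1 hz
        rintro (h1 | h1)
        · refine (hBlmem h w).1 (hh hw) ?_
          rw [hq, mul_smul, Set.smul_mem_smul_set_iff] at h1
          exact h1
        · exact (hBlmem g w).1 (hg hw) (Set.mem_smul_set_iff_inv_smul_mem.2 h1)
      have h7 := Set.ncard_le_ncard hsub
      rw [Set.ncard_coe_finset, Finset.card_image_of_injective _ (MulAction.injective g⁻¹)] at h7
      have := Set.ncard_add_ncard_compl (q • M ∪ M)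
      omega
    rcases (q • M ∩ M).eq_empty_or_nonempty with he | hne2
    · have h5 := Set.ncard_union_eq (Set.disjoint_iff_inter_eq_empty.2 he)
      rw [hcard] at h5
      omega
    · have := hbig q hne2 hne'
      omega
  have hjoin : ∀ S : Finset Ω, S.card = k → ∃ g : G, S ⊆ Bl g := by
    intro S hS
    obtain ⟨T, hTL, hTc⟩ := Finset.exists_subset_card_eq (s := L) (n := k) (by omega)
    obtain ⟨g, hg⟩ := exists_smul_eq G (⟨fun i => ((T.equivFinOfCardEq hTc).symm i : Ω),
      Subtype.val_injective.comp (Equiv.injective _)⟩ : Fin k ↪ Ω)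
      ⟨fun i => ((S.equivFinOfCardEq hS).symm i : Ω), Subtype.val_injective.comp (Equiv.injective _)⟩
    refine ⟨g, fun s hs => Finset.mem_image.2 ⟨_, hTL
      ((T.equivFinOfCardEq hTc).symm (S.equivFinOfCardEq hS ⟨s, hs⟩)).2, ?_⟩⟩
    have h1 := DFunLike.congr_fun hg (S.equivFinOfCardEq hS ⟨s, hs⟩)
    simpa using h1
  set Γf : Finset Ω := Γ.toFinset with hΓf
  have hΓc : Γf.card = m := by rw [← hm]; exact (Set.ncard_eq_toFinset_card' Γ).symm
  have hncard : Fintype.card Ω = 2 * m + 1 := by rw [← Nat.card_eq_fintype_card]; exact hn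
  -- a block with `k` points outside `Γ` misses `Γ`
  have hC1 : ∀ g : G, ∀ S : Finset Ω, k ≤ S.card → S ⊆ Bl g → Disjoint S Γf → Disjoint (Bl g) Γf := by
    intro g S hS hg hd
    rw [Finset.disjoint_left]
    intro x hx hxΓ
    have hΓB : Γf ⊆ Bl g := by
      intro y hy
      obtain ⟨c, hc, hcx⟩ := hΓ x (Set.mem_toFinset.1 hxΓ) y (Set.mem_toFinset.1 hy)
      have hfix : ∀ w ∈ S, c • w = w := fun w hw =>
        hc w fun h => Finset.disjoint_left.1 hd hw (Set.mem_toFinset.2 h)
      have himg : Bl (c * g) = (Bl g).image (c • ·) := by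
        simp only [hBl, Finset.image_image]; congr 1; funext z; exact mul_smul c g z
      have e := huniq g (c * g) S hS hg fun w hw => by
        rw [himg, Finset.mem_image]; exact ⟨w, hg hw, hfix w hw⟩
      rw [← e, himg, Finset.mem_image]
      exact ⟨x, hx, hcx⟩
    have hle : (S ∪ Γf).card ≤ (Bl g).card := Finset.card_le_card (Finset.union_subset hg hΓB)
    rw [Finset.card_union_of_disjoint hd, hΓc, hBlc, hLc] at hle
    omega
  -- blocks have size `k + 1`
  have hℓ : L.card = k + 1 := by
    by_contra hℓ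
    obtain ⟨x, hx⟩ := Finset.card_pos.1 (show 0 < Γf.card by omega)
    have hout : (Γfᶜ).card = m + 1 := by rw [Finset.card_compl, hncard, hΓc]; omega
    obtain ⟨D, hDo, hDc⟩ := Finset.exists_subset_card_eq (s := Γfᶜ) (n := k - 2) (by omega)
    have hxD : x ∉ D := fun h => Finset.mem_compl.1 (hDo h) hx
    set O := Γfᶜ \ D with hO
    have hOc : O.card = m + 1 - (k - 2) := by rw [hO, Finset.card_sdiff_of_subset hDo, hout, hDc]
    have hT : ∀ c ∈ O, (insert c (insert x D)).card = k := by
      intro c hc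
      obtain ⟨hc1, hc2⟩ := Finset.mem_sdiff.1 hc
      have hcx : c ≠ x := fun e => Finset.mem_compl.1 hc1 (e ▸ hx)
      rw [Finset.card_insert_of_notMem (by simp [hcx, hc2]), Finset.card_insert_of_notMem hxD, hDc]
      omega
    choose f hf using fun c (hc : c ∈ O) => hjoin _ (hT c hc)
    set W : (c : Ω) → c ∈ O → Finset Ω := fun c hc => Bl (f c hc) \ insert c (insert x D) with hW
    have hWc : ∀ c hc, 2 ≤ (W c hc).card := fun c hc => by
      rw [hW, Finset.card_sdiff_of_subset (hf c hc), hBlc, hT c hc]; omega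
    have hWsub : ∀ c hc, W c hc ⊆ Γf.erase x := by
      intro c hc w hw
      obtain ⟨hw1, hw2⟩ := Finset.mem_sdiff.1 hw
      simp only [Finset.mem_insert, not_or] at hw2
      refine Finset.mem_erase.2 ⟨hw2.2.1, ?_⟩
      by_contra hwΓ
      obtain ⟨hc1, hc2⟩ := Finset.mem_sdiff.1 hc
      have hd := hC1 (f c hc) (insert w (insert c D))
        (by rw [Finset.card_insert_of_notMem (by simp [hw2.1, hw2.2.2]),
              Finset.card_insert_of_notMem hc2, hDc]; omega)
        (by
          intro z hz
          simp only [Finset.mem_insert] at hz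
          rcases hz with rfl | rfl | hz
          · exact hw1
          · exact hf _ hc (Finset.mem_insert_self _ _)
          · exact hf c hc (Finset.mem_insert_of_mem (Finset.mem_insert_of_mem hz)))
        (by
          rw [Finset.disjoint_left]
          intro z hz
          simp only [Finset.mem_insert] at hz
          rcases hz with rfl | rfl | hz
          · exact hwΓ
          · exact Finset.mem_compl.1 hc1
          · exact Finset.mem_compl.1 (hDo hz))
      exact Finset.disjoint_left.1 hd (hf c hc (Finset.mem_insert_of_mem (Finset.mem_insert_self x D))) hx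
    have hdis : ∀ c hc c' hc', c ≠ c' → Disjoint (W c hc) (W c' hc') := by
      intro c hc c' hc' hcc
      rw [Finset.disjoint_left]
      intro w hw hw'
      obtain ⟨hw1, hw2⟩ := Finset.mem_sdiff.1 hw
      obtain ⟨hw1', -⟩ := Finset.mem_sdiff.1 hw'
      simp only [Finset.mem_insert, not_or] at hw2
      have hsub : ∀ d hd, w ∈ Bl (f d hd) → insert w (insert x D) ⊆ Bl (f d hd) := fun d hd h =>
        Finset.insert_subset h ((Finset.subset_insert _ _).trans (hf d hd))
      have e := huniq (f c hc) (f c' hc') (insert w (insert x D))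
        (by rw [Finset.card_insert_of_notMem (by simp [hw2.2.1, hw2.2.2]),
              Finset.card_insert_of_notMem hxD, hDc]; omega)
        (hsub c hc hw1) (hsub c' hc' hw1')
      obtain ⟨hc1, hc2⟩ := Finset.mem_sdiff.1 hc
      obtain ⟨hc1', hc2'⟩ := Finset.mem_sdiff.1 hc'
      have hd := hC1 (f c hc) (insert c (insert c' D))
        (by rw [Finset.card_insert_of_notMem (by simp [hcc, hc2]),
              Finset.card_insert_of_notMem hc2', hDc]; omega)
        (by
          intro z hz
          simp only [Finset.mem_insert] at hz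
          rcases hz with rfl | rfl | hz
          · exact hf _ hc (Finset.mem_insert_self _ _)
          · exact e ▸ hf _ hc' (Finset.mem_insert_self _ _)
          · exact hf c hc (Finset.mem_insert_of_mem (Finset.mem_insert_of_mem hz)))
        (by
          rw [Finset.disjoint_left]
          intro z hz
          simp only [Finset.mem_insert] at hz
          rcases hz with rfl | rfl | hz
          · exact Finset.mem_compl.1 hc1
          · exact Finset.mem_compl.1 hc1'
          · exact Finset.mem_compl.1 (hDo hz))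
      exact Finset.disjoint_left.1 hd (hf c hc (Finset.mem_insert_of_mem (Finset.mem_insert_self x D))) hx
    have h1 : (O.attach.biUnion fun c => W c.1 c.2).card ≤ m - 1 :=
      (Finset.card_le_card (Finset.biUnion_subset.2 fun c _ => hWsub c.1 c.2)).trans
        (by rw [Finset.card_erase_of_mem hx, hΓc])
    rw [Finset.card_biUnion (fun c _ c' _ hcc => hdis c.1 c.2 c'.1 c'.2 fun e => hcc (Subtype.ext e))] at h1
    have h2 := Finset.sum_le_sum (s := O.attach) (f := fun _ => 2) (g := fun c => (W c.1 c.2).card)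
      (fun c _ => hWc c.1 c.2)
    rw [Finset.sum_const, Finset.card_attach, smul_eq_mul, hOc] at h2
    omega
  let blk : Finset Ω → Finset Ω := fun S => if h : S.card = k then Bl (Classical.choose (hjoin S h)) else ∅
  have hblk : ∀ S, S.card = k → ∃ g, blk S = Bl g ∧ S ⊆ Bl g := fun S h =>
    ⟨Classical.choose (hjoin S h), dif_pos h, Classical.choose_spec (hjoin S h)⟩
  have hsub' : ∀ S, S.card = k → S ⊆ blk S ∧ (blk S).card = k + 1 := fun S h => by
    obtain ⟨g, e, hg⟩ := hblk S h
    rw [e]; exact ⟨hg, (hBlc g).trans hℓ⟩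
  have huniq' : ∀ S T, S.card = k → T.card = k → T ⊆ blk S → blk T = blk S := fun S T hS hT hTS => by
    obtain ⟨g, e, -⟩ := hblk S hS
    obtain ⟨h, e', hh⟩ := hblk T hT
    rw [e] at hTS ⊢
    rw [e']; exact huniq g h T hT.ge hTS hh
  rcases Nat.even_or_odd k with hev | hodd
  · refine no_completion Γf hev (by omega) (by omega) hΓc hncard blk hsub' huniq' fun S hS hd => ?_
    obtain ⟨g, e, hg⟩ := hblk S hS
    rw [e]; exact hC1 g S hS.ge hg hd
  · obtain ⟨a, ha⟩ := even_rest (by omega) (by omega) blk hsub' huniq'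
    obtain ⟨b, hb⟩ := hodd
    rw [hncard] at ha
    omega

theorem hasSmall_of_jordan_multiply {m : ℕ} {Γ : Set Ω} (hΓ : IsJordanSet G Γ) (hm : Γ.ncard = m)
    (hm2 : 2 ≤ m) (hn : Nat.card Ω = 2 * m + 1) (h4 : IsMultiplyPretransitive G Ω 4) :
    HasSmall G Ω := by
  have key : ∀ d k, 4 ≤ k → k ≤ m + 3 → 2 * k + d ≥ m + 5 → IsMultiplyPretransitive G Ω k →
      HasSmall G Ω := by
    intro d
    induction d with
    | zero =>
      intro k hk hkm hd hkt
      obtain ⟨x, hx, y, hy, hxy⟩ := two_points_of_ncard (s := Γ) (by omega)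
      obtain ⟨c, hc, hcx⟩ := hΓ x hx y hy
      have hsub : {u : Ω | c • u ≠ u} ⊆ Γ := fun u hu => by
        by_contra h; exact hu (hc u h)
      have hle := Set.ncard_le_ncard hsub
      by_cases hkn : k ≤ Nat.card Ω
      · exact hasSmall_of_transitive hkt hkn _ (by omega) (by omega) c
          ⟨x, fun e => hxy (e.symm.trans hcx)⟩ rfl
      · omega
    | succ d ih =>
      intro k hk hkm hd hkt
      by_cases h2 : 2 * k ≤ m + 4
      · exact ih (k + 1) (by omega) (by omega) (by omega) (succ_transitive hkt hΓ hm hn hk h2)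
      · exact ih k hk hkm (by omega) hkt
  exact key (m + 5) 4 le_rfl (by omega) (by omega) h4

/-- A primitive group with a Jordan set of size less than half moves some set of at most three
points only. -/
theorem hasSmall_of_primitive : ∀ (n : ℕ) (G : Type u) [Group G] (Ω : Type v) [MulAction G Ω] [Finite Ω]
    [IsPreprimitive G Ω], Nat.card Ω = n → ∀ Γ : Set Ω, IsJordanSet G Γ → 1 < Γ.ncard →
      2 * Γ.ncard < n → HasSmall G Ω := by
  intro n
  induction n using Nat.strong_induction_on with
  | _ n ih =>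
    intro G _ Ω _ _ _ hn Γ hΓ h1 h2
    have h3 := three_transitive_of_jordan hΓ h1 (by omega)
    obtain ⟨a, ha⟩ : ∃ a, a ∉ Γ := by
      by_contra hno
      push Not at hno
      rw [Set.eq_univ_iff_forall.2 hno, Set.ncard_univ] at h2
      omega
    haveI := h3
    haveI h2a : IsMultiplyPretransitive (stabilizer G a) (SubMulAction.ofStabilizer G a) 2 :=
      (SubMulAction.ofStabilizer.isMultiplyPretransitive (n := 2) (a := a)).1 h3
    haveI : IsPreprimitive (stabilizer G a) (SubMulAction.ofStabilizer G a) :=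
      isPreprimitive_of_is_two_pretransitive h2a
    set Γ' : Set (SubMulAction.ofStabilizer G a) := Subtype.val ⁻¹' Γ with hΓ'
    have hJ : IsJordanSet (stabilizer G a) Γ' := by
      intro x hx y hy
      obtain ⟨g, hg, hgx⟩ := hΓ x.1 hx y.1 hy
      exact ⟨⟨g, hg a ha⟩, fun z hz => Subtype.ext (hg z.1 hz), Subtype.ext hgx⟩
    have hcard : Γ'.ncard = Γ.ncard := by
      have himg : Subtype.val '' Γ' = Γ := by
        rw [hΓ', Set.image_preimage_eq_inter_range]
        refine Set.inter_eq_left.2 fun z hz => ?_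
        exact ⟨⟨z, fun e => ha (e ▸ hz)⟩, rfl⟩
      rw [← himg, Set.ncard_image_of_injective _ Subtype.val_injective]
    have hn' : Nat.card (SubMulAction.ofStabilizer G a) = n - 1 := by
      have hc := Set.ncard_add_ncard_compl ({a} : Set Ω)
      rw [Set.ncard_singleton, hn] at hc
      have : Nat.card (SubMulAction.ofStabilizer G a) = ({a}ᶜ : Set Ω).ncard := by
        rw [← Nat.card_coe_set_eq]; rfl
      omega
    by_cases hbig : 2 * Γ.ncard + 1 < n
    · obtain ⟨g, ⟨x, hx⟩, hle⟩ := ih (n - 1) (by omega) (stabilizer G a) (SubMulAction.ofStabilizer G a)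
        hn' Γ' hJ (hcard ▸ h1) (by omega)
      refine ⟨g.1, ⟨x.1, fun e => hx (Subtype.ext e)⟩, ?_⟩
      have hsub : {z : Ω | g.1 • z ≠ z} ⊆
          Subtype.val '' {z : SubMulAction.ofStabilizer G a | g • z ≠ z} := by
        intro z hz
        refine ⟨⟨z, fun e => hz ?_⟩, fun e => hz (congrArg Subtype.val e), rfl⟩
        rw [show z = a from e]; exact g.2
      exact (Set.ncard_le_ncard hsub).trans
        (by rwa [Set.ncard_image_of_injective _ Subtype.val_injective])
    · have h3a : IsMultiplyPretransitive (stabilizer G a) (SubMulAction.ofStabilizer G a) 3 :=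
        three_transitive_of_jordan hJ (hcard ▸ h1) (by omega)
      exact hasSmall_of_jordan_multiply hΓ rfl (by omega) (by omega)
        ((SubMulAction.ofStabilizer.isMultiplyPretransitive (n := 3) (a := a)).2 h3a)

end Cfsg.Agent.Lib.Marggraff
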