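import Mathlib
import Cfsg.Agent.Lib.Marggraff.Main

/-! Quasiprimitive groups with a small Jordan set. -/

set_option autoImplicit false

namespace Cfsg.Agent.Lib.Marggraff

open MulAction Cfsg.Agent.Lib.Recog Equiv
open scoped Pointwise

universe u v

/-- The three-cycle `a → b → c → a`. -/
def cyc {α : Type*} [DecidableEq α] (a b c : α) : Perm α := swap a b * swap b c

theorem cyc_conj {α : Type*} [DecidableEq α] (τ : Perm α) (a b c : α) :
    τ * cyc a b c * τ⁻¹ = cyc (τ a) (τ b) (τ c) := by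
  rw [cyc, cyc, swap_apply_apply, swap_apply_apply]; group

theorem cyc_rotate {α : Type*} [DecidableEq α] {a b c : α} (ab : a ≠ b) (ac : a ≠ c) (bc : b ≠ c) :
    cyc a b c = cyc b c a := by
  ext x
  simp only [cyc, Perm.mul_apply, swap_apply_def]
  split_ifs <;> simp_all

theorem cyc_inv {α : Type*} [DecidableEq α] {a b c : α} (ab : a ≠ b) (ac : a ≠ c) (bc : b ≠ c) :
    (cyc a b c)⁻¹ = cyc a c b := by
  rw [inv_eq_iff_mul_eq_one]
  ext x
  simp only [cyc, Perm.mul_apply, swap_apply_def, Perm.coe_one, id]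
  split_ifs <;> simp_all

theorem cyc_commutator {α : Type*} [DecidableEq α] {c d e f : α} (cd : c ≠ d) (ce : c ≠ e) (cf : c ≠ f)
    (de : d ≠ e) (df : d ≠ f) (ef : e ≠ f) :
    cyc d e f * (cyc c e f)⁻¹ = cyc c d e := by
  rw [cyc_inv ce cf ef]
  ext x
  simp only [cyc, Perm.mul_apply, swap_apply_def]
  split_ifs <;> simp_all

theorem cyc_mem_alternating {α : Type*} [DecidableEq α] [Fintype α] {a b c : α} (ab : a ≠ b) (bc : b ≠ c) :
    Perm.sign (cyc a b c) = 1 := by
  rw [cyc, map_mul, Perm.sign_swap ab, Perm.sign_swap bc]; rfl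

theorem alternating_le_of_primitive {G : Type u} [Group G] {Ω : Type v} [MulAction G Ω] [Fintype Ω]
    [DecidableEq Ω] [IsPreprimitive G Ω] (h : HasSmall G Ω) :
    alternatingGroup Ω ≤ (toPermHom G Ω).range := by
  obtain ⟨g, ⟨x, hx⟩, hle⟩ := h
  set P := (toPermHom G Ω).range
  have hP : IsPreprimitive P Ω :=
    IsPreprimitive.of_surjective (f := ({ toFun := id, map_smul' := fun _ _ => rfl } :
      Ω →ₑ[(toPermHom G Ω).rangeRestrict] Ω)) Function.surjective_id
  set σ : Perm Ω := toPermHom G Ω g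
  have hσP : σ ∈ P := ⟨g, rfl⟩
  have hsupp : σ.support.card ≤ 3 := by
    refine le_trans (le_of_eq ?_) hle
    rw [← Set.ncard_coe_finset]
    congr 1
    ext z
    simp [σ]
  have hne : σ ≠ 1 := fun e => hx (DFunLike.congr_fun e x)
  have h0 := Perm.one_lt_card_support_of_ne_one hne
  rcases (by omega : σ.support.card = 2 ∨ σ.support.card = 3) with h2 | h3
  · rw [Perm.subgroup_eq_top_of_isPreprimitive_of_isSwap_mem hP σ (Perm.card_support_eq_two.1 h2) hσP]
    exact le_top
  · exact Perm.alternatingGroup_le_of_isPreprimitive_of_isThreeCycle_mem hP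
      (card_support_eq_three_iff.1 h3) hσP

theorem alternating_le_of_quasiprimitive : ∀ (n : ℕ) (G : Type u) [Group G] (Ω : Type v) [MulAction G Ω]
    [FaithfulSMul G Ω] [Fintype Ω] [DecidableEq Ω], Nat.card Ω = n →
    (∀ N : Subgroup G, N.Normal → N ≠ ⊥ → IsPretransitive ↥N Ω) →
    ∀ Γ : Set Ω, IsJordanSet G Γ → 1 < Γ.ncard → 2 * Γ.ncard < n →
      alternatingGroup Ω ≤ (toPermHom G Ω).range := by
  classical
  intro n
  induction n using Nat.strong_induction_on with
  | _ n ih =>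
    intro G _ Ω _ _ _ _ hn hqp Γ hΓ h1 h2
    obtain ⟨p0, hp0, q0, hq0, hpq⟩ := two_points_of_ncard h1
    obtain ⟨k, hkfix, hkp⟩ := hΓ p0 hp0 q0 hq0
    have hk1 : k ≠ 1 := fun e => hpq (by rw [← hkp, e, one_smul])
    have htop : IsPretransitive ↥(⊤ : Subgroup G) Ω :=
      hqp ⊤ inferInstance fun e => hk1 (Subgroup.mem_bot.1 (e ▸ Subgroup.mem_top k))
    haveI : IsPretransitive G Ω :=
      ⟨fun a b => by obtain ⟨g, hg⟩ := htop.exists_smul_eq a b; exact ⟨g.1, hg⟩⟩
    suffices hprim : IsPreprimitive G Ω from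
      alternating_le_of_primitive (hasSmall_of_primitive n G Ω hn Γ hΓ h1 h2)
    refine { isTrivialBlock_of_isBlock := ?_ }
    intro B hB
    by_contra htriv
    rw [IsTrivialBlock, not_or] at htriv
    obtain ⟨hBns, hBne⟩ := htriv
    obtain ⟨b0, hb0, b1, hb1, hb01⟩ := Set.not_subsingleton_iff.1 hBns
    have hsame : ∀ (g h : G) (z : Ω), z ∈ g • B → z ∈ h • B → g • B = h • B := fun g h z hg hh => by
      by_contra hne
      exact Set.disjoint_left.1 (hB hne) hg hh
    have hcov : ∀ z : Ω, ∃ g : G, z ∈ g • B := fun z => by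
      obtain ⟨g, hg⟩ := exists_smul_eq G b0 z
      exact ⟨g, hg ▸ Set.smul_mem_smul_set hb0⟩
    have hsameS : ∀ C D : orbit G B, ∀ z : Ω, z ∈ C.1 → z ∈ D.1 → C = D := by
      rintro ⟨C, g, rfl⟩ ⟨D, h, rfl⟩ z hC hD
      exact Subtype.ext (hsame g h z hC hD)
    have hnonempty : ∀ C : orbit G B, ∃ z, z ∈ C.1 := by
      rintro ⟨C, g, rfl⟩; exact ⟨g • b0, Set.smul_mem_smul_set hb0⟩
    choose bl hbl using hcov
    let blk : Ω → orbit G B := fun z => ⟨bl z • B, bl z, rfl⟩
    have hblk : ∀ z, z ∈ (blk z).1 := hbl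
    have hblk_eq : ∀ (C : orbit G B) z, z ∈ C.1 → blk z = C := fun C z hz => hsameS _ _ z (hblk z) hz
    have hsmul : ∀ (g : G) (C : orbit G B) (z : Ω), z ∈ C.1 → g • z ∈ (g • C).1 :=
      fun g C z hz => Set.smul_mem_smul_set hz
    -- faithfulness on blocks
    haveI hfaith : FaithfulSMul G (orbit G B) := by
      by_contra hf
      set N := (toPermHom G (orbit G B)).ker
      have hN : N ≠ ⊥ := fun e => hf ⟨fun {g h} hgh => by
        have : g⁻¹ * h ∈ N := by
          rw [MonoidHom.mem_ker]; ext C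
          simp [mul_smul, ← hgh C]
        rw [e, Subgroup.mem_bot, inv_mul_eq_one] at this
        exact this⟩
      haveI := hqp N inferInstance hN
      apply hBne
      rw [Set.eq_univ_iff_forall]
      intro z
      obtain ⟨m, hm⟩ := exists_smul_eq N b0 z
      have h3 : (m : G) • blk b0 = blk b0 := DFunLike.congr_fun (MonoidHom.mem_ker.1 m.2) (blk b0)
      have h4 : z ∈ ((m : G) • blk b0).1 := by
        have h5 := hsmul (m : G) (blk b0) b0 (hblk b0)
        rwa [show (m : G) • b0 = z from hm] at h5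
      have h6 : blk b0 = ⟨B, 1, one_smul G B⟩ := hblk_eq _ _ hb0
      rw [h3, h6] at h4
      exact h4
    -- blocks are inside or outside `Γ`
    have hnot : ∀ C : orbit G B, ∀ z ∈ C.1, ∀ w ∈ C.1, z ∈ Γ → w ∈ Γ := by
      intro C z hz w hw hzΓ
      by_contra hwΓ
      have hfixC : ∀ g : G, (∀ u ∉ Γ, g • u = u) → g • C = C := fun g hg =>
        hsameS _ _ w (by have := hsmul g C w hw; rwa [hg w hwΓ] at this) hw
      have hΓC : Γ ⊆ C.1 := fun y hy => by
        obtain ⟨g, hg, hgy⟩ := hΓ z hzΓ y hy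
        rw [← hfixC g hg, ← hgy]; exact hsmul g C z hz
      apply hk1
      refine hfaith.eq_of_smul_eq_smul fun D => ?_
      rw [one_smul]
      by_cases hDC : D = C
      · rw [hDC]; exact hfixC k hkfix
      · obtain ⟨u, hu⟩ := hnonempty D
        have huΓ : u ∉ Γ := fun h => hDC (hsameS _ _ u hu (hΓC h))
        exact hsameS _ _ u (by have := hsmul k D u hu; rwa [hkfix u huΓ] at this) hu
    set Γ' : Set (orbit G B) := {C | C.1 ⊆ Γ} with hΓ'
    have hin : ∀ z, z ∈ Γ ↔ blk z ∈ Γ' := fun z =>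
      ⟨fun h w hw => hnot _ z (hblk z) w hw h, fun h => h (hblk z)⟩
    have hJ : IsJordanSet G Γ' := by
      intro C hC D hD
      obtain ⟨z, hz⟩ := hnonempty C
      obtain ⟨w, hw⟩ := hnonempty D
      obtain ⟨g, hg, hgz⟩ := hΓ z (hC hz) w (hD hw)
      refine ⟨g, fun E hE => ?_, hsameS _ _ w (hgz ▸ hsmul g C z hz) hw⟩
      obtain ⟨u, hu⟩ := hnonempty E
      have huΓ : u ∉ Γ := fun h => hE (hblk_eq E u hu ▸ (hin u).1 h)
      exact hsameS _ _ u (by have := hsmul g E u hu; rwa [hg u huΓ] at this) hu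
    have h1' : 1 < Γ'.ncard := by
      refine (Set.one_lt_ncard (Set.toFinite _)).2 ?_
      have hΓ'0 : blk p0 ∈ Γ' := (hin p0).1 hp0
      by_contra hno
      push Not at hno
      apply hk1
      refine hfaith.eq_of_smul_eq_smul fun D => ?_
      rw [one_smul]
      obtain ⟨u, hu⟩ := hnonempty D
      by_cases huΓ : u ∈ Γ
      · have hD : D = blk p0 := hblk_eq D u hu ▸ (hno _ hΓ'0 _ ((hin u).1 huΓ)).symm
        rw [hD]
        have hkblk : k • blk p0 = blk q0 :=
          hsameS _ _ q0 (by have := hsmul k (blk p0) p0 (hblk p0); rwa [hkp] at this) (hblk q0)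
        rw [hkblk]
        exact (hno _ hΓ'0 _ ((hin q0).1 hq0)).symm
      · exact hsameS _ _ u (by have := hsmul k D u hu; rwa [hkfix u huΓ] at this) hu
    -- sizes
    have hBc : ∀ C : orbit G B, C.1.ncard = B.ncard := by
      rintro ⟨C, g, rfl⟩; exact Set.ncard_image_of_injective B (MulAction.injective g)
    have hfib : ∀ S : Finset (orbit G B), (Finset.univ.filter fun z => blk z ∈ S).card = S.card * B.ncard := by
      intro S
      rw [← Finset.sum_card_fiberwise_eq_card_filter]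
      rw [Finset.sum_congr rfl (g := fun _ => B.ncard) fun C _ => ?_]
      · simp
      · rw [← hBc C, Set.ncard_eq_toFinset_card']
        congr 1
        ext z
        simp only [Finset.mem_filter, Finset.mem_univ, true_and, Set.mem_toFinset]
        exact ⟨fun h => h ▸ hblk z, fun h => hblk_eq C z h⟩
    have hnC : n = Nat.card (orbit G B) * B.ncard := by
      rw [← hn, Nat.card_eq_fintype_card, Nat.card_eq_fintype_card, ← Finset.card_univ, ← Finset.card_univ,
        ← hfib]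
      congr 1
      ext z; simp
    have hΓcard : Γ.ncard = Γ'.ncard * B.ncard := by
      rw [Set.ncard_eq_toFinset_card', Set.ncard_eq_toFinset_card' Γ', ← hfib]
      congr 1
      ext z; simp [hin z]
    have hb2 : 2 ≤ B.ncard := (Set.one_lt_ncard (Set.toFinite _)).2 ⟨b0, hb0, b1, hb1, hb01⟩
    have hlt' : 2 * Γ'.ncard < Nat.card (orbit G B) := by
      refine Nat.lt_of_mul_lt_mul_right (a := B.ncard) ?_
      rw [mul_assoc, ← hΓcard, ← hnC]; exact h2
    have halt : alternatingGroup (orbit G B) ≤ (toPermHom G (orbit G B)).range := by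
      refine ih (Nat.card (orbit G B)) ?_ G (orbit G B) rfl ?_ Γ' hJ h1' hlt'
      · haveI : Nonempty (orbit G B) := ⟨blk b0⟩
        rw [hnC]; exact lt_mul_right Nat.card_pos (by omega)
      · intro N hN hN0
        haveI := hqp N hN hN0
        refine ⟨fun C D => ?_⟩
        obtain ⟨z, hz⟩ := hnonempty C
        obtain ⟨w, hw⟩ := hnonempty D
        obtain ⟨m, hm⟩ := exists_smul_eq N z w
        exact ⟨m, hsameS _ _ w (hm ▸ hsmul (m : G) C z hz) hw⟩
    have hlift : ∀ σ : Perm (orbit G B), Perm.sign σ = 1 → ∃ g : G, ∀ C, g • C = σ C := fun σ hσ => by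
      obtain ⟨g, hg⟩ := halt (Perm.mem_alternatingGroup.2 hσ)
      exact ⟨g, fun C => DFunLike.congr_fun hg C⟩
    -- a block outside `Γ`, and the elements fixing it pointwise
    obtain ⟨B0, hB0⟩ : ∃ C, C ∉ Γ' := by
      by_contra hno
      push Not at hno
      rw [Set.eq_univ_iff_forall.2 hno, Set.ncard_univ] at hlt'
      omega
    let Good : Perm (orbit G B) → Prop := fun σ =>
      ∃ g : G, (∀ C, g • C = σ C) ∧ ∀ z ∈ B0.1, g • z = z
    let H0 : Subgroup (Perm (orbit G B)) :=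
      { carrier := {σ | Good σ}
        one_mem' := ⟨1, fun C => by simp, fun z _ => one_smul G z⟩
        mul_mem' := by
          rintro σ τ ⟨g, hg, hgz⟩ ⟨h, hh, hhz⟩
          exact ⟨g * h, fun C => by rw [mul_smul, hh, hg]; rfl, fun z hz => by rw [mul_smul, hhz z hz, hgz z hz]⟩
        inv_mem' := by
          rintro σ ⟨g, hg, hgz⟩
          refine ⟨g⁻¹, fun C => ?_, fun z hz => by rw [inv_smul_eq_iff, hgz z hz]⟩
          rw [inv_smul_eq_iff, hg]; simp }
    have hconj : ∀ (σ τ : Perm (orbit G B)), σ ∈ H0 → Perm.sign τ = 1 → τ B0 = B0 → τ * σ * τ⁻¹ ∈ H0 := by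
      rintro σ τ ⟨g, hg, hgz⟩ hτ hτ0
      obtain ⟨h, hh⟩ := hlift τ hτ
      refine ⟨h * g * h⁻¹, fun C => ?_, fun z hz => ?_⟩
      · have hi : h⁻¹ • C = τ⁻¹ C := by rw [inv_smul_eq_iff, hh]; simp
        rw [mul_smul, mul_smul, hi, hg, hh]; rfl
      · have hz' : h⁻¹ • z ∈ B0.1 := by
          have h5 := hsmul h⁻¹ B0 z hz
          rwa [show h⁻¹ • B0 = B0 by rw [inv_smul_eq_iff, hh, hτ0]] at h5
        rw [mul_smul, mul_smul, hgz _ hz', smul_inv_smul]
    set σk := toPermHom G (orbit G B) k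
    have hσkfix : ∀ C, C ∉ Γ' → σk C = C := fun C hC => by
      obtain ⟨u, hu⟩ := hnonempty C
      have huΓ : u ∉ Γ := fun h => hC (hblk_eq C u hu ▸ (hin u).1 h)
      exact hsameS _ _ u (by have := hsmul k C u hu; rwa [hkfix u huΓ] at this) hu
    have hσk : σk ∈ H0 := by
      refine ⟨k, fun C => rfl, fun z hz => hkfix z fun h => hB0 ?_⟩
      exact hblk_eq B0 z hz ▸ (hin z).1 h
    obtain ⟨c, hc⟩ : ∃ c, σk c ≠ c := by
      by_contra hno
      push Not at hno
      exact hk1 (hfaith.eq_of_smul_eq_smul fun C => (show k • C = C from hno C).trans (one_smul G C).symm)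
    have hcΓ : c ∈ Γ' := by by_contra h; exact hc (hσkfix c h)
    have hdΓ : σk c ∈ Γ' := by
      by_contra h; exact hc (σk.injective (hσkfix _ h))
    have hout : 2 < (Γ'ᶜ).ncard := by
      have := Set.ncard_add_ncard_compl Γ'
      omega
    obtain ⟨e, he, f, hf, hef, he0, hf0⟩ : ∃ e ∈ Γ'ᶜ, ∃ f ∈ Γ'ᶜ, e ≠ f ∧ e ≠ B0 ∧ f ≠ B0 := by
      have hc2 : 1 < (Γ'ᶜ \ {B0}).ncard := by
        rw [Set.ncard_diff_singleton_of_mem (show B0 ∈ Γ'ᶜ from hB0)]; omega
      obtain ⟨e, he, f, hf, hef⟩ := (Set.one_lt_ncard (Set.toFinite _)).1 hc2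
      exact ⟨e, he.1, f, hf.1, hef, he.2, hf.2⟩
    have ne_of : ∀ {x y : orbit G B}, x ∈ Γ' → y ∉ Γ' → x ≠ y := fun hx hy h => hy (h ▸ hx)
    have hc0 : c ≠ B0 := ne_of hcΓ hB0
    have hd0 : σk c ≠ B0 := ne_of hdΓ hB0
    have fix0 : ∀ {a b d : orbit G B}, a ≠ B0 → b ≠ B0 → d ≠ B0 → cyc a b d B0 = B0 := by
      intro a b d ha hb hd
      rw [cyc, Perm.mul_apply, swap_apply_of_ne_of_ne hb.symm hd.symm, swap_apply_of_ne_of_ne ha.symm hb.symm]
    have hT : cyc c (σk c) e ∈ H0 := by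
      rw [← cyc_commutator (Ne.symm hc) (ne_of hcΓ he) (ne_of hcΓ hf) (ne_of hdΓ he) (ne_of hdΓ hf) hef]
      have h7 : σk * cyc c e f * σk⁻¹ = cyc (σk c) e f := by
        rw [cyc_conj, hσkfix e he, hσkfix f hf]
      rw [← h7, mul_assoc, mul_assoc]
      refine H0.mul_mem hσk ?_
      rw [← mul_assoc]
      exact hconj _ _ (H0.inv_mem hσk) (cyc_mem_alternating (ne_of hcΓ he) hef) (fix0 hc0 he0 hf0)
    -- all three-cycles fixing `B0`
    let T : orbit G B → orbit G B → orbit G B → Prop := fun a b d =>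
      a ≠ b ∧ a ≠ d ∧ b ≠ d ∧ a ≠ B0 ∧ b ≠ B0 ∧ d ≠ B0 ∧ cyc a b d ∈ H0
    have rot : ∀ {a b d}, T a b d → T b d a := fun ⟨h1, h2, h3, h4, h5, h6, h7⟩ =>
      ⟨h3, h1.symm, h2.symm, h5, h6, h4, cyc_rotate h1 h2 h3 ▸ h7⟩
    have flip : ∀ {a b d}, T a b d → T a d b := fun ⟨h1, h2, h3, h4, h5, h6, h7⟩ =>
      ⟨h2, h1, h3.symm, h4, h6, h5, cyc_inv h1 h2 h3 ▸ H0.inv_mem h7⟩
    have repl : ∀ {a b d x}, T a b d → x ≠ b → x ≠ d → x ≠ B0 → T x b d := by
      intro a b d x ht hxb hxd hx0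
      by_cases hxa : x = a
      · exact hxa ▸ ht
      obtain ⟨h1, h2, h3, h4, h5, h6, h7⟩ := ht
      have h8 := hconj _ (cyc d x a) h7 (cyc_mem_alternating hxd.symm hxa) (fix0 h6 hx0 h4)
      rw [cyc_conj] at h8
      have e1 : cyc d x a a = d := by simp [cyc, swap_apply_def, hxa, h2, h2.symm, Ne.symm hxd, Ne.symm hxa]
      have e2 : cyc d x a b = b := by
        simp [cyc, swap_apply_def, h1.symm, Ne.symm hxb, h3]
      have e3 : cyc d x a d = x := by simp [cyc, swap_apply_def, Ne.symm hxd, h2.symm]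
      rw [e1, e2, e3] at h8
      have ht' : T d b x := ⟨h3.symm, Ne.symm hxd, Ne.symm hxb, h6, h5, hx0, h8⟩
      exact flip (rot (rot ht'))
    have hT0 : T c (σk c) e :=
      ⟨Ne.symm hc, ne_of hcΓ he, ne_of hdΓ he, hc0, hd0, he0, hT⟩
    have hall : ∀ x y z, x ≠ y → x ≠ z → y ≠ z → x ≠ B0 → y ≠ B0 → z ≠ B0 → T x y z := by
      intro x y z hxy hxz hyz hx hy hz
      obtain ⟨b, d, h1⟩ : ∃ b d, T x b d := by
        by_cases h : x = σk c
        · exact ⟨_, _, h ▸ rot hT0⟩
        by_cases h' : x = e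
        · exact ⟨_, _, h' ▸ rot (rot hT0)⟩
        exact ⟨_, _, repl hT0 h h' hx⟩
      obtain ⟨d', h2⟩ : ∃ d', T x y d' := by
        by_cases h : y = d
        · exact ⟨_, h ▸ flip h1⟩
        exact ⟨_, rot (rot (repl (rot h1) h hxy.symm hy))⟩
      exact rot (repl (rot (rot h2)) hxz.symm hyz.symm hz)
    have heven : ∀ σ : Perm (orbit G B), Perm.sign σ = 1 → σ B0 = B0 → σ ∈ H0 := by
      intro σ hσ hσ0
      have hinv : ∀ C, (σ C ≠ B0) ↔ (C ≠ B0) := fun C => by
        rw [not_iff_not]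
        exact ⟨fun h => σ.injective (h.trans hσ0.symm), fun h => h ▸ hσ0⟩
      set s : Perm {C : orbit G B // C ≠ B0} := σ.subtypePerm (p := fun C => C ≠ B0) hinv with hs
      have hos : Perm.ofSubtype s = σ := Perm.ofSubtype_subtypePerm hinv (fun C hC h => hC (h ▸ hσ0))
      have hmem : s ∈ alternatingGroup {C : orbit G B // C ≠ B0} := by
        rw [Perm.mem_alternatingGroup, ← Perm.sign_ofSubtype, hos]; exact hσ
      rw [← Perm.closure_three_cycles_eq_alternating] at hmem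
      have hle : Subgroup.closure {τ : Perm {C : orbit G B // C ≠ B0} | τ.IsThreeCycle} ≤
          H0.comap Perm.ofSubtype := by
        refine (Subgroup.closure_le _).2 fun τ hτ => ?_
        obtain ⟨a, ha⟩ := Finset.card_pos.1 (show 0 < τ.support.card by
          rw [Perm.IsThreeCycle.card_support hτ]; omega)
        have hτe := (Perm.IsThreeCycle.eq_swap_mul_swap_iff_mem_support hτ).2 ha
        have hnd := (Perm.IsThreeCycle.nodup_iff_mem_support hτ).2 ha
        simp only [List.nodup_cons, List.mem_cons, List.not_mem_nil, or_false, not_or] at hnd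
        obtain ⟨⟨n1, n2⟩, n3, -⟩ := hnd
        have hT' := hall a.1 (τ a).1 (τ (τ a)).1 (fun h => n1 (Subtype.ext h)) (fun h => n2 (Subtype.ext h))
          (fun h => n3 (Subtype.ext h)) a.2 (τ a).2 (τ (τ a)).2
        change Perm.ofSubtype τ ∈ H0
        rw [hτe, map_mul, Perm.ofSubtype_swap_eq, Perm.ofSubtype_swap_eq]
        exact hT'.2.2.2.2.2.2
      exact hos ▸ hle hmem
    -- contradiction inside `B0`
    let A : Subgroup G := (alternatingGroup (orbit G B)).comap (toPermHom G (orbit G B))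
    haveI : A.Normal := Subgroup.Normal.comap inferInstance _
    have hA : A ≠ ⊥ := by
      intro hA0
      obtain ⟨g, hg⟩ := hlift _ (cyc_mem_alternating (α := orbit G B) (a := c) (b := σk c) (c := e)
        (Ne.symm hc) (ne_of hdΓ he))
      have hgA : g ∈ A := by
        rw [Subgroup.mem_comap, show toPermHom G (orbit G B) g = cyc c (σk c) e from Equiv.ext hg]
        exact Perm.mem_alternatingGroup.2 (cyc_mem_alternating (Ne.symm hc) (ne_of hdΓ he))
      rw [hA0, Subgroup.mem_bot] at hgA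
      have h9 := hg c
      rw [hgA, one_smul] at h9
      simp [cyc, swap_apply_def, Ne.symm hc, ne_of hcΓ he] at h9
    haveI := hqp A inferInstance hA
    obtain ⟨u, hu⟩ := hnonempty B0
    obtain ⟨w, hw, hwu⟩ : ∃ w ∈ B0.1, w ≠ u := by
      have h2' : 1 < B0.1.ncard := (hBc B0).symm ▸ hb2
      obtain ⟨x, hx, y, hy, hxy⟩ := two_points_of_ncard h2'
      by_cases hxu : x = u
      · exact ⟨y, hy, fun h => hxy (hxu.trans h.symm)⟩
      · exact ⟨x, hx, hxu⟩
    obtain ⟨a, ha⟩ := exists_smul_eq A u w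
    have hsign : Perm.sign (toPermHom G (orbit G B) a.1) = 1 := Perm.mem_alternatingGroup.1 a.2
    have hfix : toPermHom G (orbit G B) a.1 B0 = B0 :=
      hsameS _ _ w (ha ▸ hsmul a.1 B0 u hu) hw
    obtain ⟨g, hg, hgz⟩ := heven _ hsign hfix
    have hga : g = a.1 := hfaith.eq_of_smul_eq_smul fun C => hg C
    have hgu := hgz u hu
    rw [hga] at hgu
    exact hwu (ha.symm.trans hgu)

end Cfsg.Agent.Lib.Marggraff
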